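import Cfsg.Agent.H662.RIM.Seven

/-!
# S4816, layer (I), ABELIAN: from Hering's theorem to abelian stabilizers (helper662)
-/

set_option autoImplicit false
set_option linter.style.haveILetI false
set_option linter.unusedSectionVars false

namespace Cfsg.Agent.H662.RIM

open Module

universe v

/-- Hering's theorem for transitive linear groups of order prime to the characteristic. -/
def HerP (p : ℕ) : Prop :=
  ∀ {V : Type v} [AddCommGroup V] [Finite V] [Nontrivial V], (∀ v : V, p • v = 0) → ∀ (H : Subgroup (Equiv.Perm V)),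
    (∀ h ∈ H, ∀ v w : V, h (v + w) = h v + h w) →
    (∀ v w : V, v ≠ 0 → w ≠ 0 → ∃ h ∈ H, h v = w) → ¬ p ∣ Nat.card H →
    (∃ (F : Type) (_ : Field F) (_ : Fintype F) (e : V ≃+ F),
      ∀ h ∈ H, ∃ (c : F) (σ : F ≃+* F), ∀ v : V, e (h v) = c * σ (e v)) ∨
    Nat.card V = p ^ 2 ∨ (p = 3 ∧ Nat.card V = 81 ∧ Nat.card H ∣ 1280)

theorem ringAut_comm' {K : Type*} [Field K] [Finite K] (σ τ : K ≃+* K) (x : K) : σ (τ x) = τ (σ x) := by
  let Γ : Subgroup (K ≃+* K) := ⊤
  have : Finite (K ≃+* K) :=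
    Finite.of_injective (fun f : K ≃+* K => (f : K → K)) DFunLike.coe_injective
  have hc : IsCyclic Γ := by
    let e := FixedPoints.toAlgAutMulEquiv Γ K
    exact isCyclic_of_surjective e.symm.toMonoidHom e.symm.surjective
  obtain ⟨g, hg⟩ := hc.exists_generator
  obtain ⟨i, hi⟩ := Subgroup.mem_zpowers_iff.1 (hg ⟨σ, Subgroup.mem_top σ⟩)
  obtain ⟨j, hj⟩ := Subgroup.mem_zpowers_iff.1 (hg ⟨τ, Subgroup.mem_top τ⟩)
  have h1 : (⟨σ, Subgroup.mem_top σ⟩ * ⟨τ, Subgroup.mem_top τ⟩ : Γ) =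
      ⟨τ, Subgroup.mem_top τ⟩ * ⟨σ, Subgroup.mem_top σ⟩ := by
    rw [← hi, ← hj, ← zpow_add, ← zpow_add, add_comm]
  have h2 : σ * τ = τ * σ := congrArg Subtype.val h1
  exact DFunLike.congr_fun h2 x

/-- the semilinear case -/
theorem comm_semi {V F : Type*} [AddCommGroup V] [Field F] [Finite F] (e : V ≃+ F) {a b : Equiv.Perm V}
    (ha : ∃ (c : F) (σ : F ≃+* F), ∀ v, e (a v) = c * σ (e v))
    (hb : ∃ (c : F) (σ : F ≃+* F), ∀ v, e (b v) = c * σ (e v)) {v₀ : V} (hv₀ : v₀ ≠ 0) (ha₀ : a v₀ = v₀)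
    (hb₀ : b v₀ = v₀) (v : V) : a (b v) = b (a v) := by
  obtain ⟨c, σ, hc⟩ := ha
  obtain ⟨d, τ, hd⟩ := hb
  have ht : e v₀ ≠ 0 := fun h => hv₀ (e.injective (h.trans (map_zero e).symm))
  have h1 := hc v₀
  have h2 := hd v₀
  rw [ha₀] at h1
  rw [hb₀] at h2
  set t := e v₀ with ht'
  have h3 : σ (τ t) ≠ 0 := by
    rw [Ne, map_eq_zero_iff σ σ.injective, map_eq_zero_iff τ τ.injective]; exact ht
  have h4 : c * σ d = d * τ c := by
    have h5 : c * σ d * σ (τ t) = t := by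
      have h6 : σ t = σ d * σ (τ t) := by
        conv_lhs => rw [h2]
        rw [map_mul]
      rw [mul_assoc, ← h6, ← h1]
    have h7 : d * τ c * σ (τ t) = t := by
      have h6 : τ t = τ c * τ (σ t) := by
        conv_lhs => rw [h1]
        rw [map_mul]
      rw [mul_assoc, ringAut_comm' σ τ t, ← h6, ← h2]
    exact mul_right_cancel₀ h3 (h5.trans h7.symm)
  apply e.injective
  rw [hc, hd, hd, hc, map_mul, map_mul, ← mul_assoc, ← mul_assoc, h4, ringAut_comm' σ τ]

/-- the plane -/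
theorem comm_sq {p : ℕ} [hp : Fact p.Prime] {V : Type*} [AddCommGroup V] [Finite V] (hexp : ∀ v : V, p • v = 0)
    (hV : Nat.card V = p ^ 2) (H : Subgroup (Equiv.Perm V)) (hadd : ∀ h ∈ H, ∀ v w : V, h (v + w) = h v + h w)
    (hpH : ¬ p ∣ Nat.card H) {e : V} (he : e ≠ 0) {a b : Equiv.Perm V} (ha : a ∈ H) (hb : b ∈ H) (hae : a e = e)
    (hbe : b e = e) : a * b = b * a := by
  classical
  have hhom : ∀ h ∈ H, ∃ f : V →+ V, ∀ v, f v = h v := by
    intro h hh
    have h0 : h 0 = 0 := by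
      have h1 := hadd h hh 0 0
      rw [add_zero] at h1
      exact left_eq_add.1 h1
    exact ⟨{ toFun := h, map_zero' := h0, map_add' := hadd h hh }, fun _ => rfl⟩
  have hz : ∀ h ∈ H, ∀ (k : ℤ) (v : V), h (k • v) = k • h v := by
    intro h hh k v
    obtain ⟨f, hf⟩ := hhom h hh
    rw [← hf, ← hf, map_zsmul]
  set U : AddSubgroup V := AddSubgroup.zmultiples e with hU
  have hfix : ∀ h ∈ H, h e = e → ∀ u ∈ U, h u = u := by
    intro h hh hhe u hu
    obtain ⟨k, rfl⟩ := AddSubgroup.mem_zmultiples_iff.1 hu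
    rw [hz h hh, hhe]
  have hUp : Nat.card U = p := by
    rw [hU, Nat.card_zmultiples]
    exact addOrderOf_eq_prime (hexp e) he
  have hQ : Nat.card (V ⧸ U) = p := by
    have h1 := AddSubgroup.card_eq_card_quotient_mul_card_addSubgroup U
    rw [hV, hUp, sq] at h1
    exact (Nat.eq_of_mul_eq_mul_right hp.out.pos h1).symm
  haveI : IsAddCyclic (V ⧸ U) := isAddCyclic_of_prime_card hQ
  obtain ⟨w', hw'⟩ := IsAddCyclic.exists_generator (α := V ⧸ U)
  obtain ⟨w, rfl⟩ := QuotientAddGroup.mk_surjective w'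
  have hw : ∀ v : V, ∃ k : ℤ, v - k • w ∈ U := by
    intro v
    obtain ⟨k, hk⟩ := AddSubgroup.mem_zmultiples_iff.1 (hw' (v : V ⧸ U))
    refine ⟨k, ?_⟩
    rw [← QuotientAddGroup.eq_zero_iff, QuotientAddGroup.mk_sub, QuotientAddGroup.mk_zsmul, hk, sub_self]
  -- scalars modulo `U`
  have hsc : ∀ h ∈ H, h e = e → ∃ m : ℤ, ∀ v, h v - m • v ∈ U := by
    intro h hh hhe
    obtain ⟨m, hm⟩ := hw (h w)
    refine ⟨m, fun v => ?_⟩
    obtain ⟨k, hk⟩ := hw v
    have h1 : h v = k • h w + (v - k • w) := by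
      have h2 : v = k • w + (v - k • w) := by abel
      conv_lhs => rw [h2]
      rw [hadd h hh, hz h hh, hfix h hh hhe _ hk]
    have h2 : h v - m • v = k • (h w - m • w) + (v - k • w) - m • (v - k • w) := by
      rw [h1, smul_sub, smul_sub, smul_smul, smul_smul, mul_comm m k]
      abel
    rw [h2]
    exact U.sub_mem (U.add_mem (U.zsmul_mem hm k) hk) (U.zsmul_mem hk m)
  obtain ⟨m, hm⟩ := hsc a ha hae
  obtain ⟨n, hn⟩ := hsc b hb hbe
  have hab : ∀ t : V, a (b t) - (m * n) • t ∈ U := by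
    intro t
    have h1 : a (b t) - (m * n) • t = (a (b t) - m • b t) + m • (b t - n • t) := by
      rw [smul_sub, smul_smul]; abel
    rw [h1]
    exact U.add_mem (hm _) (U.zsmul_mem (hn t) m)
  have hba : ∀ t : V, b (a t) - (m * n) • t ∈ U := by
    intro t
    have h1 : b (a t) - (m * n) • t = (b (a t) - n • a t) + n • (a t - m • t) := by
      rw [smul_sub, smul_smul, mul_comm n m]; abel
    rw [h1]
    exact U.add_mem (hn _) (U.zsmul_mem (hm t) n)
  set c : Equiv.Perm V := a * b * (b * a)⁻¹ with hc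
  have hcH : c ∈ H := H.mul_mem (H.mul_mem ha hb) (H.inv_mem (H.mul_mem hb ha))
  have hce : c e = e := by
    have h1 : (b * a) e = e := by rw [Equiv.Perm.mul_apply, hae, hbe]
    have h2 : (b * a)⁻¹ e = e := by rw [Equiv.Perm.inv_eq_iff_eq, h1]
    rw [hc, Equiv.Perm.mul_apply, h2, Equiv.Perm.mul_apply, hbe, hae]
  have hcU : ∀ v, c v - v ∈ U := by
    intro v
    obtain ⟨t, rfl⟩ := (b * a).surjective v
    have h1 : c ((b * a) t) = a (b t) := by
      have h2 : (b * a)⁻¹ ((b * a) t) = t := (b * a).symm_apply_apply t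
      rw [hc, Equiv.Perm.mul_apply, h2, Equiv.Perm.mul_apply]
    rw [h1, Equiv.Perm.mul_apply]
    have h2 : a (b t) - b (a t) = (a (b t) - (m * n) • t) - (b (a t) - (m * n) • t) := by abel
    rw [h2]
    exact U.sub_mem (hab t) (hba t)
  have hck : ∀ (k : ℕ) (v : V), (c ^ k) v = v + k • (c v - v) := by
    intro k
    induction k with
    | zero => intro v; simp
    | succ k ih =>
      intro v
      rw [pow_succ', Equiv.Perm.mul_apply, ih, hadd c hcH, hfix c hcH hce _ (U.nsmul_mem (hcU v) k), succ_nsmul]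
      abel
  have hcp : c ^ p = 1 := by
    ext v
    rw [hck, hexp, add_zero]; rfl
  have hc1 : c = 1 := by
    have h1 : orderOf c ∣ p := orderOf_dvd_of_pow_eq_one hcp
    rcases (Nat.dvd_prime hp.out).1 h1 with h2 | h2
    · exact orderOf_eq_one_iff.1 h2
    · exfalso
      apply hpH
      rw [← h2]
      exact Subgroup.orderOf_dvd_natCard H hcH
  exact mul_inv_eq_one.1 hc1

/-- the space with `81` vectors -/
theorem abel_big {p : ℕ} [hp : Fact p.Prime] (h3 : p = 3) {V : Type v} [AddCommGroup V] [Finite V] [Nontrivial V]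
    [Module (ZMod p) V] (h81 : Nat.card V = 81) (H : Subgroup (Equiv.Perm V))
    (hadd : ∀ h ∈ H, ∀ v w : V, h (v + w) = h v + h w) (htr : ∀ v w : V, v ≠ 0 → w ≠ 0 → ∃ h ∈ H, h v = w)
    (hH : Nat.card H ∣ 1280) {e : V} (he : e ≠ 0)
    {a b : Equiv.Perm V} (ha : a ∈ H) (hb : b ∈ H) (hae : a e = e) (hbe : b e = e) :
    (∃ (F : Type) (_ : Field F) (_ : Fintype F) (e : V ≃+ F),
      ∀ h ∈ H, ∃ (c : F) (σ : F ≃+* F), ∀ v : V, e (h v) = c * σ (e v)) ∨ ∀ v, a (b v) = b (a v) := by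
  classical
  have hlift : ∀ h ∈ H, ∃ f : V ≃ₗ[ZMod p] V, ∀ v, f v = h v := by
    intro h hh
    have h0 : h 0 = 0 := by
      have h1 := hadd h hh 0 0
      rw [add_zero] at h1
      exact left_eq_add.1 h1
    let f : V →+ V := { toFun := h, map_zero' := h0, map_add' := hadd h hh }
    exact ⟨LinearEquiv.ofBijective (f.toZModLinearMap p) h.bijective, fun _ => rfl⟩
  let H' : Subgroup (V ≃ₗ[ZMod p] V) := H.comap (MulAction.toPermHom (V ≃ₗ[ZMod p] V) V)
  have hmem : ∀ f : V ≃ₗ[ZMod p] V, ∀ h ∈ H, (∀ v, f v = h v) → f ∈ H' := by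
    intro f h hh hf
    rw [Subgroup.mem_comap]
    have h1 : MulAction.toPermHom (V ≃ₗ[ZMod p] V) V f = h := Equiv.ext hf
    rw [h1]; exact hh
  have hcard : Nat.card H' ∣ 1280 := by
    refine (Subgroup.card_comap_dvd_of_injective H _ ?_).trans hH
    exact MulAction.toPerm_injective
  obtain ⟨a', ha'⟩ := hlift a ha
  obtain ⟨b', hb'⟩ := hlift b hb
  rcases four_lin h3 h81 H' hcard (by
    intro v w hv hw
    obtain ⟨h, hh, rfl⟩ := htr v w hv hw
    obtain ⟨f, hf⟩ := hlift h hh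
    exact ⟨f, hmem f h hh hf, hf v⟩) with ⟨F, iF, iF', f, h⟩ | h
  · left
    refine ⟨F, iF, iF', f, fun h' hh' => ?_⟩
    obtain ⟨g, hg⟩ := hlift h' hh'
    obtain ⟨c, σ, hc⟩ := h ⟨g, hmem g h' hh' hg⟩
    refine ⟨c, σ, fun v => ?_⟩
    rw [← hc v]
    congr 1
    exact (hg v).symm
  · right
    intro v
    have h1 := h e he a' (hmem a' a ha ha') b' (hmem b' b hb hb') (by rw [ha', hae]) (by rw [hb', hbe])
    have h2 := DFunLike.congr_fun h1 v
    change a' (b' v) = b' (a' v) at h2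
    rwa [hb', ha', ha', hb'] at h2

/-- **Stabilizers in a transitive linear group of order prime to the characteristic are abelian.** -/
theorem abel_perm_of {p : ℕ} [hp : Fact p.Prime] (her : HerP.{v} p) {V : Type v} [AddCommGroup V] [Finite V]
    (hexp : ∀ v : V, p • v = 0) (H : Subgroup (Equiv.Perm V)) (hadd : ∀ h ∈ H, ∀ v w : V, h (v + w) = h v + h w)
    (htr : ∀ v w : V, v ≠ 0 → w ≠ 0 → ∃ h ∈ H, h v = w) (hpH : ¬ p ∣ Nat.card H) {e : V} (he : e ≠ 0)
    {a b : Equiv.Perm V} (ha : a ∈ H) (hb : b ∈ H) (hae : a e = e) (hbe : b e = e) (v : V) : a (b v) = b (a v) := by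
  classical
  haveI : Nontrivial V := ⟨⟨e, 0, he⟩⟩
  have hsemi : (∃ (F : Type) (_ : Field F) (_ : Fintype F) (e : V ≃+ F),
      ∀ h ∈ H, ∃ (c : F) (σ : F ≃+* F), ∀ v : V, e (h v) = c * σ (e v)) → a (b v) = b (a v) := by
    rintro ⟨F, _, _, f, h⟩
    exact comm_semi f (h a ha) (h b hb) he hae hbe v
  rcases her hexp H hadd htr hpH with h | h | ⟨h3, h81, hH⟩
  · exact hsemi h
  · exact DFunLike.congr_fun (comm_sq hexp h H hadd hpH he ha hb hae hbe) v
  · letI : Module (ZMod p) V := AddCommGroup.zmodModule hexp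
    rcases abel_big h3 h81 H hadd htr hH he ha hb hae hbe with h | h
    · exact hsemi h
    · exact h v

/-- The same, for a subgroup acting on an invariant subgroup. -/
theorem abel_of {p : ℕ} [hp : Fact p.Prime] (her : HerP.{v} p) {G : Type*} {V : Type v} [Group G] [Finite G]
    [AddCommGroup V] [Finite V] [DistribMulAction G V] (hexp : ∀ v : V, p • v = 0) (Q : Subgroup G)
    (hQ : ¬ p ∣ Nat.card Q) (W : AddSubgroup V) (hQW : ∀ g ∈ Q, ∀ w ∈ W, g • w ∈ W)
    (htr : ∀ v ∈ W, ∀ w ∈ W, v ≠ 0 → w ≠ 0 → ∃ g ∈ Q, g • v = w) {e : V} (he : e ∈ W) (he0 : e ≠ 0) {a b : G}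
    (ha : a ∈ Q) (hb : b ∈ Q) (hae : a • e = e) (hbe : b • e = e) : ∀ v ∈ W, a • b • v = b • a • v := by
  classical
  letI act : MulAction Q W :=
    { smul := fun g w => ⟨(g : G) • (w : V), hQW g g.2 w w.2⟩
      one_smul := fun w => Subtype.ext (one_smul G (w : V))
      mul_smul := fun g h w => Subtype.ext (mul_smul (g : G) (h : G) (w : V)) }
  have hact : ∀ (g : Q) (w : W), ((g • w : W) : V) = (g : G) • (w : V) := fun _ _ => rfl
  let H : Subgroup (Equiv.Perm W) := (MulAction.toPermHom Q W).range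
  have h1 := abel_perm_of her (V := W) (fun w => Subtype.ext (hexp w)) H
    (by
      rintro _ ⟨g, rfl⟩ v w
      exact Subtype.ext (smul_add (g : G) (v : V) (w : V)))
    (by
      intro v w hv hw
      obtain ⟨g, hg, hgv⟩ := htr v v.2 w w.2 (fun h => hv (Subtype.ext h)) (fun h => hw (Subtype.ext h))
      exact ⟨_, ⟨⟨g, hg⟩, rfl⟩, Subtype.ext hgv⟩)
    (fun h => hQ (h.trans (Subgroup.card_range_dvd _)))
    (e := ⟨e, he⟩) (fun h => he0 (congrArg Subtype.val h))
    (a := MulAction.toPermHom Q W ⟨a, ha⟩) (b := MulAction.toPermHom Q W ⟨b, hb⟩) ⟨_, rfl⟩ ⟨_, rfl⟩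
    (Subtype.ext hae) (Subtype.ext hbe)
  intro v hv
  exact congrArg Subtype.val (h1 ⟨v, hv⟩)

end Cfsg.Agent.H662.RIM
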