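import Cfsg.Agent.H662.RIM.Four

/-!
# S4816, layer (I), ABELIAN: the number of singular points is five (helper662; the proof is taken from `H609.HerExt.ext_abs`)
-/

set_option autoImplicit false
set_option linter.style.haveILetI false
set_option linter.unusedVariables false

namespace Cfsg.Agent.H662.RIM

open Cfsg.Agent.H609.HerExt Cfsg.Agent.H348.Trans
open scoped Pointwise

variable {H : Type*} [Group H] [Finite H]

theorem card_five (A B : Subgroup H) [hAn : A.Normal] [hBn : B.Normal] (hAB : A ≤ B)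
    (hA2 : Nat.card A = 2) (h16 : A.relIndex B = 16) (hsq : ∀ x ∈ B, x ^ 2 ∈ A)
    (hcm : ∀ x ∈ B, ∀ y ∈ B, x * y * x⁻¹ * y⁻¹ ∈ A)
    (hC : Subgroup.centralizer (B : Set H) ≤ A)
    (x : H) (hx : x ^ 5 = 1) (hfree : ∀ b ∈ B, b * x * b⁻¹ * x⁻¹ ∈ A → b ∈ A) :
    Nat.card {w : H ⧸ A // ∃ b ∈ B, b ∉ A ∧ b * b = 1 ∧ (b : H ⧸ A) = w} = 5 := by
  classical
  -- the involution of `A`
  have hB32 : Nat.card B = 32 := by
    have h1 := Subgroup.relIndex_mul_relIndex ⊥ A B bot_le hAB
    rw [Subgroup.relIndex_bot_left, Subgroup.relIndex_bot_left, hA2, h16] at h1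
    exact h1.symm
  obtain ⟨z, hzA, hz1⟩ : ∃ z ∈ A, z ≠ 1 := by
    by_contra hcon
    push Not at hcon
    have := (Subgroup.eq_bot_iff_forall A).2 hcon
    rw [this, Subgroup.card_bot] at hA2
    norm_num at hA2
  have hA : ∀ a ∈ A, a = 1 ∨ a = z := by
    intro a ha
    by_contra hcon
    push Not at hcon
    haveI := Fintype.ofFinite A
    have h1 : ({⟨1, A.one_mem⟩, ⟨z, hzA⟩, ⟨a, ha⟩} : Finset A).card = 3 := by
      rw [Finset.card_eq_three]
      exact ⟨_, _, _, fun h => hz1 (congrArg Subtype.val h).symm, fun h => hcon.1 (congrArg Subtype.val h).symm,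
        fun h => hcon.2 (congrArg Subtype.val h).symm, rfl⟩
    have h2 := Finset.card_le_univ ({⟨1, A.one_mem⟩, ⟨z, hzA⟩, ⟨a, ha⟩} : Finset A)
    rw [h1, ← Nat.card_eq_fintype_card, hA2] at h2
    omega
  have hzz : z * z = 1 := by
    rcases hA _ (A.mul_mem hzA hzA) with h | h
    · exact h
    · exact absurd (mul_eq_right.1 h) hz1
  have hzc : ∀ h : H, h * z = z * h := by
    intro h
    rcases hA _ (hAn.conj_mem z hzA h) with h1 | h1
    · exfalso; apply hz1
      have h2 : h * z * h⁻¹ * h = h := by rw [h1, one_mul]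
      rw [inv_mul_cancel_right] at h2
      exact mul_eq_left.1 h2
    · rw [mul_inv_eq_iff_eq_mul] at h1; exact h1
  have hAc : ∀ a ∈ A, ∀ h : H, h * a = a * h := by
    intro a ha h
    rcases hA a ha with rfl | rfl
    · rw [mul_one, one_mul]
    · exact hzc h
  -- the number of involutions
  haveI := Fintype.ofFinite B
  have hn := card_sq_eq_one (B := B) ⟨z, hAB hzA⟩ (fun h => hz1 (congrArg Subtype.val h)) (Subtype.ext hzz)
    (fun b => Subtype.ext (hzc b))
    (by
      intro b
      rcases hA _ (by rw [← sq]; exact hsq b b.2 : (b : H) * b ∈ A) with h | h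
      · exact Or.inl (Subtype.ext h)
      · exact Or.inr (Subtype.ext h))
    (by
      intro b c
      rcases hA _ (hcm b b.2 c c.2) with h | h
      · left; apply Subtype.ext
        change (b : H) * c = c * b
        rwa [mul_inv_eq_one, mul_inv_eq_iff_eq_mul] at h
      · right; apply Subtype.ext
        change (b : H) * c = z * (c * b)
        rw [mul_inv_eq_iff_eq_mul, mul_inv_eq_iff_eq_mul, mul_assoc] at h
        exact h)
    (by rw [← Nat.card_eq_fintype_card]; exact hB32)
    (by
      intro u hu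
      have h1 : (u : H) ∈ A := hC (by
        rw [Subgroup.mem_centralizer_iff]
        intro b hb
        exact (congrArg Subtype.val (hu ⟨b, hb⟩)).symm)
      rcases hA _ h1 with h | h
      · exact Or.inl (Subtype.ext h)
      · exact Or.inr (Subtype.ext h))
  let X := {w : H ⧸ A // ∃ b ∈ B, b ∉ A ∧ b * b = 1 ∧ (b : H ⧸ A) = w}
  have hX59 : Nat.card X = 5 ∨ Nat.card X = 9 := by
    let I := {b : H // b ∈ B ∧ b ∉ A ∧ b * b = 1}
    have hI : Nat.card I + 2 = (Finset.univ.filter fun b : B => b * b = 1).card := by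
      have h1 : (Finset.univ.filter fun b : B => b * b = 1) =
          (Finset.univ.filter fun b : B => b * b = 1 ∧ (b : H) ∉ A) ∪ {⟨1, B.one_mem⟩, ⟨z, hAB hzA⟩} := by
        ext b
        simp only [Finset.mem_filter, Finset.mem_univ, true_and, Finset.mem_union, Finset.mem_insert,
          Finset.mem_singleton]
        constructor
        · intro h
          by_cases hb : (b : H) ∈ A
          · right
            rcases hA _ hb with h2 | h2
            · exact Or.inl (Subtype.ext h2)
            · exact Or.inr (Subtype.ext h2)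
          · exact Or.inl ⟨h, hb⟩
        · rintro (h | rfl | rfl)
          · exact h.1
          · exact Subtype.ext (mul_one 1)
          · exact Subtype.ext hzz
      have h2 : Disjoint (Finset.univ.filter fun b : B => b * b = 1 ∧ (b : H) ∉ A) {⟨1, B.one_mem⟩, ⟨z, hAB hzA⟩} := by
        rw [Finset.disjoint_left]
        intro b hb hb'
        simp only [Finset.mem_filter, Finset.mem_univ, true_and, Finset.mem_insert,
          Finset.mem_singleton] at hb hb'
        rcases hb' with rfl | rfl
        · exact hb.2 A.one_mem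
        · exact hb.2 hzA
      rw [h1, Finset.card_union_of_disjoint h2, Finset.card_pair (fun h => hz1 (congrArg Subtype.val h).symm)]
      congr 1
      rw [← Fintype.card_coe, ← Nat.card_eq_fintype_card]
      refine Nat.card_congr ⟨fun b => ⟨⟨b.1, b.2.1⟩, ?_⟩, fun b => ⟨b.1.1, b.1.2, ?_⟩, fun _ => rfl, fun _ => rfl⟩
      · rw [Finset.mem_filter]
        exact ⟨Finset.mem_univ _, Subtype.ext b.2.2.2, b.2.2.1⟩
      · have := (Finset.mem_filter.1 b.2).2
        exact ⟨this.2, congrArg Subtype.val this.1⟩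
    have hIX : Nat.card I = Nat.card X * 2 := by
      let e : I ≃ (QuotientGroup.mk ⁻¹' {w : H ⧸ A | ∃ b ∈ B, b ∉ A ∧ b * b = 1 ∧ (b : H ⧸ A) = w} : Set H) :=
        { toFun := fun b => ⟨b.1, b.1, b.2.1, b.2.2.1, b.2.2.2, rfl⟩
          invFun := fun b => ⟨b.1, by
            obtain ⟨c, hc, hcA, hcc, hcb⟩ := b.2
            have h1 : c⁻¹ * b.1 ∈ A := QuotientGroup.eq.1 hcb
            have h2 : (b : H) = c * (c⁻¹ * b.1) := by group
            generalize c⁻¹ * b.1 = a at *
            rw [h2]
            refine ⟨B.mul_mem hc (hAB h1), fun h => hcA ?_, ?_⟩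
            · have := A.mul_mem h (A.inv_mem h1)
              rwa [mul_inv_cancel_right] at this
            · rcases hA a h1 with h3 | h3
              · rw [h3, mul_one]; exact hcc
              · rw [h3]
                calc c * z * (c * z) = c * (z * c) * z := by group
                  _ = c * (c * z) * z := by rw [← hzc c]
                  _ = (c * c) * (z * z) := by group
                  _ = 1 := by rw [hcc, hzz, one_mul]⟩
          left_inv := fun _ => rfl
          right_inv := fun _ => rfl }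
      rw [Nat.card_congr e, Nat.card_congr (QuotientGroup.preimageMkEquivSubgroupProdSet A _), Nat.card_prod, hA2,
        mul_comm]
      rfl
    omega
  -- the conjugation action
  letI act : MulAction H X :=
    { smul := fun h w => ⟨h * w.1 * (h : H ⧸ A)⁻¹, by
        obtain ⟨b, hb, hbA, hbb, hbw⟩ := w.2
        refine ⟨h * b * h⁻¹, hBn.conj_mem b hb h, fun h1 => hbA ?_, ?_, ?_⟩
        · have := hAn.conj_mem _ h1 h⁻¹
          have e : h⁻¹ * (h * b * h⁻¹) * h⁻¹⁻¹ = b := by group
          rwa [e] at this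
        · have e : h * b * h⁻¹ * (h * b * h⁻¹) = h * (b * b) * h⁻¹ := by group
          rw [e, hbb]; group
        · rw [← hbw]; rfl⟩
      one_smul := fun w => Subtype.ext (by
        show ((1 : H) : H ⧸ A) * w.1 * ((1 : H) : H ⧸ A)⁻¹ = w.1
        rw [QuotientGroup.mk_one]; group)
      mul_smul := fun a b w => Subtype.ext (by
        show ((a * b : H) : H ⧸ A) * w.1 * ((a * b : H) : H ⧸ A)⁻¹ = a * (b * w.1 * (b : H ⧸ A)⁻¹) * (a : H ⧸ A)⁻¹
        rw [QuotientGroup.mk_mul]; group) }
  have hact : ∀ (h : H) (w : X), ((h • w : X) : H ⧸ A) = h * w.1 * (h : H ⧸ A)⁻¹ := fun _ _ => rfl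
  -- `5 ∣ |X|`
  haveI := Fintype.ofFinite X
  haveI : Fact (Nat.Prime 5) := ⟨by norm_num⟩
  have hfree' : ∀ n ∈ B.map (QuotientGroup.mk' A), (x : H ⧸ A) * n * (x : H ⧸ A)⁻¹ = n → n = 1 := by
    rintro _ ⟨b, hb, rfl⟩ h
    have h1 : (x : H ⧸ A) * b * (x : H ⧸ A)⁻¹ = b := h
    change (b : H ⧸ A) = 1
    rw [QuotientGroup.eq_one_iff]
    apply hfree b hb
    rw [← QuotientGroup.eq_one_iff]
    change (b : H ⧸ A) * x * (b : H ⧸ A)⁻¹ * (x : H ⧸ A)⁻¹ = 1
    rw [mul_inv_eq_one, mul_inv_eq_iff_eq_mul]
    rw [mul_inv_eq_iff_eq_mul] at h1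
    exact h1.symm
  have hx5 : (x : H ⧸ A) ^ 5 = 1 := by
    rw [← QuotientGroup.mk_pow, hx]; rfl
  have hX5 : Nat.card X = 5 := by
    have h1 : (MulAction.toEndHom (α := X) x) ^ 5 ^ 1 = 1 := by
      rw [pow_one, ← map_pow, hx, map_one]
    have h2 := Equiv.Perm.card_fixedPoints_modEq h1
    have h3 : ∀ inst : Fintype (Function.fixedPoints (MulAction.toEndHom (α := X) x)),
        @Fintype.card (Function.fixedPoints (MulAction.toEndHom (α := X) x)) inst = 0 := by
      intro inst
      rw [Fintype.card_eq_zero_iff]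
      constructor
      rintro ⟨w, hw⟩
      obtain ⟨b, hb, hbA, hbb, hbw⟩ := w.2
      have h4 : (x : H ⧸ A) * w.1 * (x : H ⧸ A)⁻¹ = w.1 := congrArg Subtype.val hw
      rw [← hbw] at h4
      have h5 := hfree' (b : H ⧸ A) ⟨b, hb, rfl⟩ h4
      exact hbA ((QuotientGroup.eq_one_iff b).1 h5)
    rw [h3, ← Nat.card_eq_fintype_card] at h2
    rcases hX59 with h4 | h4
    · exact h4
    · rw [h4] at h2; exact absurd h2 (by decide)
  exact hX5

end Cfsg.Agent.H662.RIM
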