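import Cfsg.Agent.H662.RIM.Five

/-!
# S4816, layer (I), ABELIAN: `2`-groups meeting the centre trivially are abelian (helper662)
-/

set_option autoImplicit false
set_option linter.style.haveILetI false

namespace Cfsg.Agent.H662.RIM

open Cfsg.Agent.H609.HerExt Cfsg.Agent.H348.Trans
open scoped Pointwise

variable {H : Type*} [Group H] [Finite H]

/-- the situation: `B` of order `32`, class two, centre `A` of order `2`, `x` acts freely on `B / A` -/
structure Sit (A B : Subgroup H) (x : H) : Prop where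
  hAn : A.Normal
  hBn : B.Normal
  hAB : A ≤ B
  hA2 : Nat.card A = 2
  h16 : A.relIndex B = 16
  hsq : ∀ x ∈ B, x ^ 2 ∈ A
  hcm : ∀ x ∈ B, ∀ y ∈ B, x * y * x⁻¹ * y⁻¹ ∈ A
  hC : Subgroup.centralizer (B : Set H) ≤ A
  hx : x ^ 5 = 1
  hfree : ∀ b ∈ B, b * x * b⁻¹ * x⁻¹ ∈ A → b ∈ A

variable {A B : Subgroup H} {x : H}

theorem Sit.card_B (S : Sit A B x) : Nat.card B = 32 := by
  have h1 := Subgroup.relIndex_mul_relIndex ⊥ A B bot_le S.hAB
  rw [Subgroup.relIndex_bot_left, Subgroup.relIndex_bot_left, S.hA2, S.h16] at h1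
  exact h1.symm

theorem Sit.central (S : Sit A B x) : ∀ a ∈ A, ∀ h : H, h * a = a * h := by
  classical
  obtain ⟨z, hzA, hz1⟩ : ∃ z ∈ A, z ≠ 1 := by
    by_contra hcon
    push Not at hcon
    have := (Subgroup.eq_bot_iff_forall A).2 hcon
    have h2 := S.hA2
    rw [this, Subgroup.card_bot] at h2
    norm_num at h2
  have hA : ∀ a ∈ A, a = 1 ∨ a = z := by
    intro a ha
    by_contra hcon
    push Not at hcon
    haveI := Fintype.ofFinite A
    have h1 : ({⟨1, A.one_mem⟩, ⟨z, hzA⟩, ⟨a, ha⟩} : Finset A).card = 3 := by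
      rw [Finset.card_eq_three]
      exact ⟨_, _, _, fun h => hz1 (congrArg Subtype.val h).symm, fun h => hcon.1 (congrArg Subtype.val h).symm,
        fun h => hcon.2 (congrArg Subtype.val h).symm, rfl⟩
    have h2 := Finset.card_le_univ ({⟨1, A.one_mem⟩, ⟨z, hzA⟩, ⟨a, ha⟩} : Finset A)
    rw [h1, ← Nat.card_eq_fintype_card, S.hA2] at h2
    omega
  have hzc : ∀ h : H, h * z = z * h := by
    intro h
    rcases hA _ (S.hAn.conj_mem z hzA h) with h1 | h1
    · exfalso; apply hz1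
      have h2 : h * z * h⁻¹ * h = h := by rw [h1, one_mul]
      rw [inv_mul_cancel_right] at h2
      exact mul_eq_left.1 h2
    · rw [mul_inv_eq_iff_eq_mul] at h1; exact h1
  intro a ha h
  rcases hA a ha with rfl | rfl
  · rw [mul_one, one_mul]
  · exact hzc h

theorem Sit.card_W (S : Sit A B x) : haveI := S.hAn; Nat.card (B.map (QuotientGroup.mk' A)) = 16 := by
  haveI := S.hAn
  have h1 := Subgroup.relIndex_ker (QuotientGroup.mk' A) (K := B)
  rw [QuotientGroup.ker_mk'] at h1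
  rw [← S.h16]; exact h1.symm

theorem Sit.free (S : Sit A B x) : haveI := S.hAn; ∀ n ∈ B.map (QuotientGroup.mk' A),
    (x : H ⧸ A) * n * (x : H ⧸ A)⁻¹ = n → n = 1 := by
  haveI := S.hAn
  rintro _ ⟨b, hb, rfl⟩ h
  have h1 : (x : H ⧸ A) * b * (x : H ⧸ A)⁻¹ = b := h
  change (b : H ⧸ A) = 1
  rw [QuotientGroup.eq_one_iff]
  apply S.hfree b hb
  rw [← QuotientGroup.eq_one_iff]
  change (b : H ⧸ A) * x * (b : H ⧸ A)⁻¹ * (x : H ⧸ A)⁻¹ = 1
  rw [mul_inv_eq_one, mul_inv_eq_iff_eq_mul]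
  rw [mul_inv_eq_iff_eq_mul] at h1
  exact h1.symm

/-- An element acting trivially on `B / A` is in `B`. -/
theorem Sit.mem_B {K : Type*} [Field K] (S : Sit A B x) (ι : A →* Kˣ) (hι : Function.Injective ι) {c : H}
    (hc : ∀ b ∈ B, c * b * c⁻¹ * b⁻¹ ∈ A) : c ∈ B := by
  haveI := S.hAn
  haveI := S.hBn
  let D : Subgroup H := (Subgroup.centralizer ((B.map (QuotientGroup.mk' A) : Subgroup (H ⧸ A)) : Set (H ⧸ A))).comap
    (QuotientGroup.mk' A)
  have hD : ∀ d, d ∈ D ↔ ∀ b ∈ B, d * b * d⁻¹ * b⁻¹ ∈ A := by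
    intro d
    rw [Subgroup.mem_comap, Subgroup.mem_centralizer_iff]
    constructor
    · intro h b hb
      have h1 := h (b : H ⧸ A) ⟨b, hb, rfl⟩
      rw [← QuotientGroup.eq_one_iff]
      change (d : H ⧸ A) * b * (d : H ⧸ A)⁻¹ * (b : H ⧸ A)⁻¹ = 1
      rw [mul_inv_eq_one, mul_inv_eq_iff_eq_mul]
      exact h1.symm
    · rintro h _ ⟨b, hb, rfl⟩
      have h1 := h b hb
      rw [← QuotientGroup.eq_one_iff] at h1
      change (d : H ⧸ A) * b * (d : H ⧸ A)⁻¹ * (b : H ⧸ A)⁻¹ = 1 at h1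
      rw [mul_inv_eq_one, mul_inv_eq_iff_eq_mul] at h1
      exact h1.symm
  have hBD : B ≤ D := fun b hb => (hD b).2 fun c hc => S.hcm b hb c hc
  have h1 := relIndex_centralizer_eq A D B ι hι (fun d hd b hb => (hD d).1 hd b hb)
    (fun d _ a ha => S.central a ha d) (fun b _ a ha => S.central a ha b)
  have h2 : (Subgroup.centralizer (D : Set H)).relIndex B ≤ 16 := by
    rw [← S.h16]
    refine Nat.le_of_dvd ?_ (Subgroup.relIndex_dvd_of_le_left B ?_)
    · rw [S.h16]; norm_num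
    · intro a ha
      rw [Subgroup.mem_centralizer_iff]
      exact fun d _ => S.central a ha d
  have h3 : Nat.card D ≤ 32 := by
    have h4 := Subgroup.relIndex_mul_relIndex ⊥ (Subgroup.centralizer (B : Set H) ⊓ D) D bot_le inf_le_right
    rw [Subgroup.relIndex_bot_left, Subgroup.relIndex_bot_left, Subgroup.inf_relIndex_right, h1] at h4
    rw [← h4]
    have h5 : Nat.card (Subgroup.centralizer (B : Set H) ⊓ D : Subgroup H) ≤ 2 := by
      rw [← S.hA2]
      exact Nat.card_le_card_of_injective _ (Subgroup.inclusion_injective (inf_le_left.trans S.hC))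
    calc _ ≤ 2 * 16 := Nat.mul_le_mul h5 h2
      _ = 32 := by norm_num
  have h4 : B = D := Subgroup.eq_of_le_of_card_ge hBD (by rw [S.card_B]; exact h3)
  rw [h4]
  exact (hD c).2 hc

/-- An element of `2`-power order which commutes with `x` modulo `B` is in `B`. -/
theorem Sit.mem_B_of_comm {K : Type*} [Field K] (S : Sit A B x) (ι : A →* Kˣ) (hι : Function.Injective ι) {c : H}
    {k : ℕ} (hck : c ^ 2 ^ k = 1) (hcx : c * x * c⁻¹ * x⁻¹ ∈ B) : c ∈ B := by
  haveI := S.hAn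
  haveI := S.hBn
  set W : Subgroup (H ⧸ A) := B.map (QuotientGroup.mk' A) with hWdef
  have hW16 : Nat.card W = 16 := S.card_W
  have hWn : W.Normal := S.hBn.map _ (QuotientGroup.mk'_surjective A)
  have hWc : ∀ u ∈ W, ∀ v ∈ W, u * v = v * u := by
    rintro _ ⟨u, hu, rfl⟩ _ ⟨v, hv, rfl⟩
    have h1 := S.hcm u hu v hv
    rw [← QuotientGroup.eq_one_iff] at h1
    change (u : H ⧸ A) * v * (u : H ⧸ A)⁻¹ * (v : H ⧸ A)⁻¹ = 1 at h1
    rw [mul_inv_eq_one, mul_inv_eq_iff_eq_mul] at h1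
    exact h1
  let N : Subgroup (H ⧸ A) := W ⊓ Subgroup.centralizer {(c : H ⧸ A)}
  have hN : ∀ n, n ∈ N ↔ n ∈ W ∧ (c : H ⧸ A) * n * (c : H ⧸ A)⁻¹ = n := by
    intro n
    rw [Subgroup.mem_inf, Subgroup.mem_centralizer_iff]
    refine and_congr_right fun _ => ⟨fun h => ?_, fun h y hy => ?_⟩
    · rw [mul_inv_eq_iff_eq_mul]; exact h _ rfl
    · rw [Set.mem_singleton_iff] at hy
      rw [hy]
      exact mul_inv_eq_iff_eq_mul.1 h
  have h2 : 2 ∣ Nat.card N := two_dvd_fix W N hW16 (c : H ⧸ A) (k := k)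
    (by rw [← QuotientGroup.mk_pow, hck]; rfl) (fun n hn => hWn.conj_mem n hn _) hN
  have hNx : ∀ n ∈ N, (x : H ⧸ A) * n * (x : H ⧸ A)⁻¹ ∈ N := by
    intro n hn
    obtain ⟨hnW, hn⟩ := (hN n).1 hn
    refine (hN _).2 ⟨hWn.conj_mem n hnW _, ?_⟩
    obtain ⟨b, hb, hbe⟩ : ∃ b ∈ W, (c : H ⧸ A) * x = b * x * c :=
      ⟨((c * x * c⁻¹ * x⁻¹ : H) : H ⧸ A), ⟨_, hcx, rfl⟩, by
        change ((c * x : H) : H ⧸ A) = ((c * x * c⁻¹ * x⁻¹ * x * c : H) : H ⧸ A)
        congr 1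
        group⟩
    have h3 := hWc b hb _ (hWn.conj_mem n hnW (x : H ⧸ A))
    calc (c : H ⧸ A) * (x * n * (x : H ⧸ A)⁻¹) * (c : H ⧸ A)⁻¹ = (c * x) * n * ((c : H ⧸ A) * x)⁻¹ := by group
      _ = b * (x * (c * n * (c : H ⧸ A)⁻¹) * (x : H ⧸ A)⁻¹) * b⁻¹ := by rw [hbe]; group
      _ = b * (x * n * (x : H ⧸ A)⁻¹) * b⁻¹ := by rw [hn]
      _ = x * n * (x : H ⧸ A)⁻¹ := by rw [h3]; group
  have hx5 : (x : H ⧸ A) ^ 5 = 1 := by
    rw [← QuotientGroup.mk_pow, S.hx]; rfl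
  have h5 := card_mod N (x : H ⧸ A) hx5 hNx (fun n hn => S.free n ((hN n).1 hn).1)
  have hNW : N = W := by
    apply Subgroup.eq_of_le_of_card_ge inf_le_left
    rw [hW16]
    have h6 : Nat.card N ∣ 16 := by rw [← hW16]; exact Subgroup.card_dvd_of_le inf_le_left
    generalize Nat.card N = n at *
    have h7 : n ≤ 16 := Nat.le_of_dvd (by norm_num) h6
    interval_cases n <;> first | omega | (exfalso; revert h5; decide)
  refine S.mem_B ι hι fun b hb => ?_
  have h6 : (b : H ⧸ A) ∈ N := by rw [hNW]; exact ⟨b, hb, rfl⟩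
  have h7 := ((hN _).1 h6).2
  rw [← QuotientGroup.eq_one_iff]
  change (c : H ⧸ A) * b * (c : H ⧸ A)⁻¹ * (b : H ⧸ A)⁻¹ = 1
  rw [h7, mul_inv_cancel]

/-- Two elements of `B` generating a subgroup which meets `A` trivially. -/
theorem Sit.eq_of_mem (S : Sit A B x) {P : Subgroup H} (hPA : ∀ a ∈ P, a ∈ A → a = 1) {g h : H} (hg : g ∈ P)
    (hgB : g ∈ B) (hh : h ∈ P) (hhB : h ∈ B) (hg1 : g ≠ 1) (hh1 : h ≠ 1) : g = h := by
  classical
  haveI := S.hAn
  haveI := S.hBn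
  by_contra hne
  have hsq : ∀ a ∈ P, a ∈ B → a * a = 1 := by
    intro a ha haB
    exact hPA _ (P.mul_mem ha ha) (by rw [← sq]; exact S.hsq a haB)
  have hgg := hsq g hg hgB
  have hhh := hsq h hh hhB
  have hgh := hsq _ (P.mul_mem hg hh) (B.mul_mem hgB hhB)
  have hcomm : g * h = h * g := by
    have e : g * h * (g * h)⁻¹ = 1 := mul_inv_cancel _
    calc g * h = g * (g * h * (g * h)) * h := by rw [hgh, mul_one]
      _ = (g * g) * (h * g) * (h * h) := by group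
      _ = h * g := by rw [hgg, hhh]; group
  set W : Subgroup (H ⧸ A) := B.map (QuotientGroup.mk' A) with hWdef
  have hWn : W.Normal := S.hBn.map _ (QuotientGroup.mk'_surjective A)
  have hWc : ∀ u ∈ W, ∀ v ∈ W, u * v = v * u := by
    rintro _ ⟨u, hu, rfl⟩ _ ⟨v, hv, rfl⟩
    have h1 := S.hcm u hu v hv
    rw [← QuotientGroup.eq_one_iff] at h1
    change (u : H ⧸ A) * v * (u : H ⧸ A)⁻¹ * (v : H ⧸ A)⁻¹ = 1 at h1
    rw [mul_inv_eq_one, mul_inv_eq_iff_eq_mul] at h1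
    exact h1
  letI : CommGroup W := { (inferInstance : Group W) with mul_comm := fun a b => Subtype.ext (hWc a a.2 b b.2) }
  haveI := Fintype.ofFinite W
  let Y : Finset W := Finset.univ.filter fun w => ∃ b ∈ B, b ∉ A ∧ b * b = 1 ∧ (b : H ⧸ A) = w
  have hY : Y.card = 5 := by
    rw [← card_five A B S.hAB S.hA2 S.h16 S.hsq S.hcm S.hC x S.hx S.hfree, ← Fintype.card_coe,
      ← Nat.card_eq_fintype_card]
    refine Nat.card_congr ⟨fun w => ⟨w.1.1, ?_⟩, fun w => ⟨⟨w.1, ?_⟩, ?_⟩, fun _ => rfl, fun _ => rfl⟩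
    · exact (Finset.mem_filter.1 w.2).2
    · obtain ⟨b, hb, -, -, h⟩ := w.2
      exact ⟨b, hb, h⟩
    · exact Finset.mem_filter.2 ⟨Finset.mem_univ _, w.2⟩
  -- conjugation by `x`
  let cx : W ≃* W := MulAut.conjNormal (x : H ⧸ A)
  have hcx : ∀ w : W, ((cx w : W) : H ⧸ A) = x * w * (x : H ⧸ A)⁻¹ := fun w => MulAut.conjNormal_apply _ _
  have himg : Y.image cx = Y := by
    apply Finset.eq_of_subset_of_card_le
    · intro w hw
      obtain ⟨v, hv, rfl⟩ := Finset.mem_image.1 hw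
      obtain ⟨b, hb, hbA, hbb, hbv⟩ := (Finset.mem_filter.1 hv).2
      refine Finset.mem_filter.2 ⟨Finset.mem_univ _, x * b * x⁻¹, S.hBn.conj_mem b hb x, fun h1 => hbA ?_, ?_, ?_⟩
      · have := S.hAn.conj_mem _ h1 x⁻¹
        have e : x⁻¹ * (x * b * x⁻¹) * x⁻¹⁻¹ = b := by group
        rwa [e] at this
      · have e : x * b * x⁻¹ * (x * b * x⁻¹) = x * (b * b) * x⁻¹ := by group
        rw [e, hbb]; group
      · rw [hcx, ← hbv]; rfl
    · rw [Finset.card_image_of_injective _ cx.injective]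
  have hprod : ∏ w ∈ Y, w = 1 := by
    have h1 : cx (∏ w ∈ Y, w) = ∏ w ∈ Y, w := by
      rw [map_prod]
      conv_rhs => rw [← himg]
      rw [Finset.prod_image (fun a _ b _ h => cx.injective h)]
    have h2 := S.free ((∏ w ∈ Y, w : W) : H ⧸ A) (∏ w ∈ Y, w : W).2 (by
      rw [← hcx, h1])
    exact Subtype.ext h2
  -- the three points
  have hpt : ∀ a ∈ P, a ∈ B → a ≠ 1 → ∀ haW : (a : H ⧸ A) ∈ W, (⟨(a : H ⧸ A), haW⟩ : W) ∈ Y := by
    intro a ha haB ha1 haW
    refine Finset.mem_filter.2 ⟨Finset.mem_univ _, a, haB, fun h => ha1 (hPA a ha h), hsq a ha haB, rfl⟩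
  have hinj : ∀ a ∈ P, ∀ b ∈ P, (a : H ⧸ A) = (b : H ⧸ A) → a = b := by
    intro a ha b hb hab
    rw [QuotientGroup.eq] at hab
    have := hPA _ (P.mul_mem (P.inv_mem ha) hb) hab
    exact inv_mul_eq_one.1 this
  have hgW : (g : H ⧸ A) ∈ W := ⟨g, hgB, rfl⟩
  have hhW : (h : H ⧸ A) ∈ W := ⟨h, hhB, rfl⟩
  have hghW : ((g * h : H) : H ⧸ A) ∈ W := ⟨g * h, B.mul_mem hgB hhB, rfl⟩
  have hgh1 : g * h ≠ 1 := by
    intro h1
    apply hne
    calc g = g * (h * h) := by rw [hhh, mul_one]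
      _ = (g * h) * h := by group
      _ = h := by rw [h1, one_mul]
  set u : W := ⟨(g : H ⧸ A), hgW⟩ with hu
  set v : W := ⟨(h : H ⧸ A), hhW⟩ with hv
  set w : W := ⟨((g * h : H) : H ⧸ A), hghW⟩ with hw
  have huv : u ≠ v := fun e => hne (hinj g hg h hh (congrArg Subtype.val e))
  have huw : u ≠ w := by
    intro e
    have := hinj g hg _ (P.mul_mem hg hh) (congrArg Subtype.val e)
    exact hh1 (mul_eq_left.1 this.symm)
  have hvw : v ≠ w := by
    intro e
    have := hinj h hh _ (P.mul_mem hg hh) (congrArg Subtype.val e)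
    exact hg1 (mul_eq_right.1 this.symm)
  have hT : ({u, v, w} : Finset W) ⊆ Y := by
    intro t ht
    simp only [Finset.mem_insert, Finset.mem_singleton] at ht
    rcases ht with rfl | rfl | rfl
    · exact hpt g hg hgB hg1 _
    · exact hpt h hh hhB hh1 _
    · exact hpt _ (P.mul_mem hg hh) (B.mul_mem hgB hhB) hgh1 _
  have hT3 : ({u, v, w} : Finset W).card = 3 := Finset.card_eq_three.2 ⟨u, v, w, huv, huw, hvw, rfl⟩
  have hrest : (Y \ {u, v, w}).card = 2 := by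
    rw [Finset.card_sdiff_of_subset hT, hY, hT3]
  obtain ⟨r, s, hrs, hrs'⟩ := Finset.card_eq_two.1 hrest
  have hpT : ∏ t ∈ ({u, v, w} : Finset W), t = 1 := by
    rw [Finset.prod_insert (by simp [huv, huw]), Finset.prod_insert (by simp [hvw]), Finset.prod_singleton]
    apply Subtype.ext
    change ((g * (h * (g * h)) : H) : H ⧸ A) = 1
    have e : g * (h * (g * h)) = 1 := by rw [← mul_assoc]; exact hgh
    rw [e]; rfl
  have h6 : r * s = 1 := by
    have h7 := Finset.prod_sdiff hT (f := fun t : W => t)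
    rw [hpT, mul_one, hrs', Finset.prod_pair hrs, hprod] at h7
    exact h7
  have hr : r * r = 1 := by
    have h7 : r ∈ Y \ {u, v, w} := by rw [hrs']; simp
    obtain ⟨b, hb, -, hbb, hbr⟩ := (Finset.mem_filter.1 (Finset.mem_sdiff.1 h7).1).2
    apply Subtype.ext
    change (r : H ⧸ A) * (r : H ⧸ A) = 1
    rw [← hbr, ← QuotientGroup.mk_mul, hbb]; rfl
  exact hrs (mul_left_cancel (hr.trans h6.symm))

end Cfsg.Agent.H662.RIM
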